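import Cfsg.Agent.H908.RIM.Lift
import Cfsg.Agent.H582.Sq.ChainN
import Cfsg.Agent.H53.HC.Exc

/-!
# Irreducible characters over a central character: typed forms (helper908, S4816)

* `exists_irr_chain_over` : `J` = a chain of `m ≥ 3` nodes, reversed by the elements permuting its simple roots;
* `exists_of_one_over` : `J` = all nodes but `j`, one component `{k₀, k₁}` of type `A_2` (as `H53.HC.big_of_one`).
-/

set_option autoImplicit false
set_option linter.unusedSectionVars false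

open scoped ComplexConjugate
open Cfsg

namespace Cfsg.Agent.H908.RIM

open Cfsg.Agent.Characters Cfsg.Agent.H53.HC CoxeterSystem Cfsg.Agent.ChevalleyStructure.CoxeterGeom Cfsg.Agent.Tits.Roots
  Cfsg.Agent.Tits.Core Cfsg.Agent.Tits.Exchange Cfsg.Agent.Nodes.Reps Cfsg.Agent.Nodes.BNOf Cfsg.Agent.Nodes.StabComb
  Cfsg.Agent.Nodes.Bruhat Cfsg.Agent.Nodes.OppDec Cfsg.Agent.Nodes.LeviDec
open Cfsg.Agent.LieRecognition.BNCox (cA)

section chain

variable {I : Type*} {W : Type*} {Y : Type*} [Fintype I] [DecidableEq I] [Group W] [Group Y] {M : CoxeterMatrix I}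
  {cs : CoxeterSystem M W} {A : I → I → ℤ} {h : IsCartan M A} {p : ℕ} {T : Subgroup Y} {n : I → Y}
  {X : (I → ℤ) → Subgroup Y} [Finite W] [Finite Y] (R : RGD cs h p T n X)

include R

open Cfsg.Agent.H622.Levi (exists_co Co) in
open Cfsg.Agent.H582.Sq (exists_ns) in
/-- **A maximal Levi subgroup of type `A_m`.** -/
theorem exists_irr_chain_over (hG : GG cs h T X = ⊤) {m : ℕ} (hm : 3 ≤ m) (k : Fin m ↪ I)
    (hk : ∀ i j, M (k i) (k j) = cA m i j) {q : ℕ} (i₀ : Fin m) (hq : Nat.card (X (sr (k i₀))) = q)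
    (hrev : ∀ w : W, Perm cs h (Set.range k) w → w ∉ WJ cs (Set.range k) →
      ∀ i, rep cs h w (sr (k i)) = sr (k (Fin.rev i)))
    {Z : Subgroup Y} (hZ : Z ≤ Subgroup.center Y) (hZT : Z ≤ T)
    (hco : (Nat.card Z).Coprime (Nat.gcd (m + 1) (q - 1))) (l : Z →* ℂˣ) :
    ∃ χ : Y → ℂ, IsIrrCharacter Y χ ∧ (∀ z : Z, χ z = χ 1 * l z) ∧
      ∃ a e t : ℕ, 0 < a ∧ χ 1 = ((PJ cs h T X (Set.range k)).index * (a * e) : ℕ) ∧
      e * t = ∏ i ∈ Finset.range m, (q ^ (i + 1) - 1) ∧ t ∣ Nat.gcd (m + 1) (q - 1) := by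
  have : Fintype Y := Fintype.ofFinite Y
  have hcen := cenExp_chain R (by omega) k hk i₀ hq
  have hZM := eq_one_of_cenExp hcen hZ hco
  obtain ⟨F, _, _, φ, C⟩ := exists_co R (by omega) k hk
  have hcard := C.card i₀
  rw [hq] at hcard
  obtain ⟨θ, e, t, hθ, he, het, ht, hns⟩ := exists_ns (cs := cs) (h := h) hm C hk
  rw [← hcard] at het ht
  obtain ⟨χ, hχ, hχZ, a, ha, hχ1⟩ := exists_irr_over R hG (Set.range k) hθ.irr hθ.van (by
    intro w g hg hw hp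
    by_contra hcon
    push Not at hcon
    have hgn := H53.HC.rp_mem_normalizer_MJ R hg hp
    have hr := hrev w hp hw
    have hr' : ∀ i, rep cs h w⁻¹ (sr (k i)) = sr (k (Fin.rev i)) := by
      intro i
      have h1 := hr (Fin.rev i)
      rw [Fin.rev_rev] at h1
      rw [← h1, rep_inv_apply]
    refine hns g⁻¹ (inv_mem hgn) (fun i => ?_) (fun i => ?_) ?_
    · rw [R.conj_rp hg.inv (isRoot_sr cs h (k i)), hr']
    · rw [R.conj_rp hg.inv (isRoot_sr cs h (k i)).neg, map_neg, hr']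
    · funext x
      rw [Function.comp_apply]
      refine Eq.trans ?_ (hcon x x.2)
      congr 1
      apply Subtype.ext
      rw [conjME_coe, inv_inv]) hZ hZT l (by
    intro z hz hm
    obtain rfl := hZM z hz hm
    have e2 : l ⟨1, hz⟩ = 1 := map_one l
    rw [e2, Units.val_one, mul_one]
    rfl)
  refine ⟨χ, hχ, hχZ, a, e, t, ha, ?_, het, ht⟩
  rw [hχ1, he]
  push_cast
  ring

end chain

section one

open Cfsg.Agent.H35.ExcIdx

variable {r q l : ℕ} {M : CoxeterMatrix (Fin l)} {A : Fin l → Fin l → ℤ} {h : IsCartan M A}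
  {S : Type*} [Group S] {T : Subgroup S} {n : Fin l → S} {X : (Fin l → ℤ) → Subgroup S}

/-- **One component of type `A_2`** (`F₄(q)`, `²E₆(q)`, `E₇(q)`, `E₈(q)`). -/
theorem exists_of_one_over [Finite S] [Finite M.Group] (R : RGD M.toCoxeterSystem h r T n X)
    (hG : GG M.toCoxeterSystem h T X = ⊤) {j k₀ k₁ : Fin l} {K' : Set (Fin l)}
    (hJ : ({i | i ≠ j} : Set (Fin l)) = {k₀, k₁} ∪ K')
    (ho : ∀ i ∈ ({k₀, k₁} : Set (Fin l)), ∀ i' ∈ K', M i i' = 2) (hk : M k₀ k₁ = 3) (hk1 : M k₁ j = 2)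
    (hk0 : M k₀ j = 3 ∨ M k₀ j = 4)
    (hun : ∀ a b, a ≠ j → b ≠ j → M a b = 3 → (∀ c, c ≠ j → c ≠ a → c ≠ b → M a c = 2 ∧ M b c = 2) →
      (a = k₀ ∧ b = k₁) ∨ (a = k₁ ∧ b = k₀))
    (hA2 : InA2 h X q k₀ k₁) (hK' : In h X K') {Z : Subgroup S} (hZ : Z ≤ Subgroup.center S) (hZT : Z ≤ T)
    {e₁ e₂ : ℕ} (he₁ : CenExp M.toCoxeterSystem h X {k₀, k₁} e₁) (he₂ : CenExp M.toCoxeterSystem h X K' e₂)
    (hco : (Nat.card Z).Coprime (e₁ * e₂)) (lam : Z →* ℂˣ) :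
    ∃ χ : S → ℂ, IsIrrCharacter S χ ∧ (∀ z : Z, χ z = χ 1 * lam z) ∧
      ∃ k d e t : ℕ, 0 < k ∧ χ 1 = ((PJ M.toCoxeterSystem h T X {i | i ≠ j}).index * (k * (d * e)) : ℕ) ∧
        d * t = (q - 1) * (q ^ 2 - 1) ∧ t ∣ 3 := by
  classical
  have : Fintype S := Fintype.ofFinite S
  obtain ⟨θ, hθ, hns, d, t, hd, hdt, ht⟩ := hA2
  obtain ⟨θ', hθ'⟩ := hK'
  have hmem : ∀ i, i ∈ ({i | i ≠ j} : Set (Fin l)) ↔ i ≠ j := fun i => Iff.rfl
  have hk0J : k₀ ∈ ({i | i ≠ j} : Set (Fin l)) := by rw [hJ]; simp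
  have hk1J : k₁ ∈ ({i | i ≠ j} : Set (Fin l)) := by rw [hJ]; simp
  have hcen := CenExp.union R (orth_of h ho) he₁ he₂
  rw [← hJ] at hcen
  have hZM := eq_one_of_cenExp hcen hZ hco
  obtain ⟨χ, hχ, hχZ, k, hk0', hχ1⟩ := exists_irr_one_over R hG hmem hJ (orth_of h ho) rfl
    (isoPair_of h hk0J hk1J hk fun c hc hc0 hc1 => by
      rw [hJ] at hc
      rcases hc with hc | hc
      · rcases hc with rfl | rfl
        · exact absurd rfl hc0
        · exact absurd rfl hc1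
      · exact ⟨ho _ (by simp) c hc, ho _ (by simp) c hc⟩)
    (cartan_two h hk1).1 (not_three_dvd h hk0)
    (fun a b hab => by
      obtain ⟨h1, h2, h3, h4⟩ := of_isoPair h hab
      exact hun a b h1 h2 h3 h4)
    hθ hns hθ' hZ hZT hZM lam
  obtain ⟨e, -, he⟩ := Cfsg.Agent.Characters.Core.isIrr_apply_one hθ'.irr
  refine ⟨χ, hχ, hχZ, k, d, e, t, hk0', ?_, hdt, ht⟩
  rw [hχ1, hd, he]; push_cast; ring

end one

end Cfsg.Agent.H908.RIM
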